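import Cfsg.Agent.H584.Ore.ESixTwo
import Cfsg.Agent.H140.TC.Fam

/-!
# `E₆(2)`, S4173: one fixed class of order dividing `21` (helper584)

* `one_class` : the square of one real class is the whole group;
* `tc_E6_two` : the row `E₆(2)` of S4173.
-/

set_option autoImplicit false

namespace Cfsg.Agent.H584.Ore.ESixTC

open Cfsg.Lie Cfsg.Agent.H584.Ore.ESix

universe u

/-- **One class.** -/
theorem one_class {K : Type u} [Field K] (hK : Nat.card K = 2) : ∃ c z : ↥(chevE6.group K),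
    z * z = 1 ∧ z * c * z⁻¹ = c⁻¹ ∧ orderOf c ∣ 21 ∧
    ∀ g, ∃ x y : ↥(chevE6.group K), g = (x * c * x⁻¹) * (y * c * y⁻¹) := by
  obtain ⟨e⟩ := exists_iso hK
  let f := Cfsg.Agent.ChevalleyStructure.FieldIso.groupEquiv chevE6 e
  obtain ⟨c, z, h1, h2, h3, h⟩ := Cfsg.Agent.H584.Ore.ESixTwo.exists_data
  refine ⟨f c, f z, by rw [← map_mul, h1, map_one], by rw [← map_mul, ← map_inv, ← map_mul, h2, map_inv],
    (orderOf_map_dvd f.toMonoidHom c).trans h3, fun g => ?_⟩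
  obtain ⟨x, y, e1⟩ := h (f.symm g)
  refine ⟨f x, f y, ?_⟩
  rw [← map_inv, ← map_mul, ← map_mul, ← map_inv, ← map_mul, ← map_mul, ← map_mul, ← e1]
  exact (f.apply_symm_apply g).symm

/-- **The row `E₆(2)` of S4173.** -/
theorem tc_E6_two {K : Type u} [Field K] (hK : Nat.card K = 2) : Cfsg.Agent.H140.TC.TC ↥(chevE6.group K) := by
  obtain ⟨c, z, -, -, -, h⟩ := one_class hK
  exact ⟨c, c, fun g _ => h g⟩

theorem tc_iso {S : Type*} [Group S] {K : Type u} [Field K] (hK : Nat.card K = 2) (e : S ≃* ↥(chevE6.group K)) :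
    Cfsg.Agent.H140.TC.TC S :=
  (tc_E6_two hK).of_equiv e

end Cfsg.Agent.H584.Ore.ESixTC
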